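import Mathlib
import Cfsg.Agent.CyN.P3T
import Cfsg.Agent.CyN.P3V

/-! S3256, `p = 3`: the rank 4 collapse. -/

set_option autoImplicit false
set_option linter.unusedSimpArgs false

namespace Cfsg.Agent.CyN

open Subgroup

variable {G : Type*} [Group G] {a b c d : G}

theorem p3u_bd {x y : G} (h : Bd x y) : x * y * x * y⁻¹ * x⁻¹ * y⁻¹ = 1 := by
  rw [show x * y * x = y * x * y from h]; group

theorem p3u_cm {x y : G} (h : x * y = y * x) : x * y * x⁻¹ * y⁻¹ = 1 := by
  rw [h]; group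

/-- the tuple -/
def p3uT (a b c d : G) : ℕ → G
  | 0 => a
  | 1 => a⁻¹
  | 2 => b
  | 3 => b⁻¹
  | 4 => c
  | 5 => c⁻¹
  | 6 => d
  | 7 => d⁻¹
  | _ => 1

open Cfsg.Agent.Comp.BN in
theorem p3u_sub (x : ℕ → G) {u v : ℕ} {H : Subgroup G} (hu : x u ∈ H) (hv : x v ∈ H) :
    gen (subT x [[u], [v]]) ≤ H := by
  refine (closure_le _).2 ?_
  rintro _ ⟨k, rfl⟩
  match k with
  | 0 => simpa [subT, nth_zero] using hu
  | 1 => simpa [subT, nth_zero, nth_succ] using hv
  | k + 2 => simp [subT, nth_succ, nth_nil]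

open Cfsg.Agent.Comp.BN in
theorem p3u_sub1 (x : ℕ → G) {u : ℕ} {H : Subgroup G} (hu : x u ∈ H) :
    gen (subT x [[u]]) ≤ H := by
  refine (closure_le _).2 ?_
  rintro _ ⟨k, rfl⟩
  match k with
  | 0 => simpa [subT, nth_zero] using hu
  | k + 1 => simp [subT, nth_succ, nth_nil]

open Cfsg.Agent.Comp.BN in
theorem tc4T {G : Type} [Group G] {a b c d : G} (ha : a ^ 3 = 1) (hb : b ^ 3 = 1) (hc : c ^ 3 = 1) (hd : d ^ 3 = 1)
    (h1 : Bd a b) (h2 : Bd c b) (h3 : Bd d b)
    (s1 : Bd a c) (s2 : Bd a (b * c * b⁻¹)) (s3 : Bd a (b⁻¹ * c * b))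
    (r1 : Bd d c) (r2 : Bd d (b * c * b⁻¹)) (r3 : Bd d (b⁻¹ * c * b))
    (t1 : Bd d a) (t2 : Bd d⁻¹ (b * a * b⁻¹)) (t3 : Bd d⁻¹ (b⁻¹ * a * b))
    (x1 : Bd d (c⁻¹ * (a⁻¹ * b * a) * c)) (x2 : Bd d⁻¹ (c⁻¹ * (a * b * a⁻¹) * c)) :
    (b * c) ^ 3 = 1 := by
  obtain ⟨-, -, z2, -⟩ := tc2 hb hc h2
  have za := (tc_ppp ha hb hc h1 h2 s1 s2 s3).1
  have zd := (tc_ppp hd hb hc h3 h2 r1 r2 r3).1
  obtain ⟨w1, w2, -, -, w3, -⟩ := tc2 hb hd h3
  rw [← w3] at w1 w2
  have out : ∀ k, P3.P.inv.length ≤ k → p3uT a b c d k = 1 := fun k hk => by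
    obtain ⟨j, rfl⟩ := Nat.exists_eq_add_of_le' (show 8 ≤ k from hk)
    rfl
  have hs : Sat P3.P (p3uT a b c d) := by
    refine ⟨out, inv_of_lt out fun k hk => ?_, ?_⟩
    · have hk' : k < 8 := hk
      interval_cases k
      exacts [inv_mul_cancel a, mul_inv_cancel a, inv_mul_cancel b, mul_inv_cancel b,
        inv_mul_cancel c, mul_inv_cancel c, inv_mul_cancel d, mul_inv_cancel d]
    · simp only [P3.P, List.forall_mem_cons, ev_cons, ev_nil, p3uT]
      refine ⟨?_, ?_, ?_, ?_, ?_, ?_, ?_, ?_, ?_, ?_, ?_, ?_, ?_, ?_, ?_, ?_, ?_, ?_, ?_, ?_, ?_, by simp⟩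
      · simpa only [pow_succ, pow_zero, mul_assoc, one_mul, mul_one] using ha
      · simpa only [pow_succ, pow_zero, mul_assoc, one_mul, mul_one] using hb
      · simpa only [pow_succ, pow_zero, mul_assoc, one_mul, mul_one] using hc
      · simpa only [pow_succ, pow_zero, mul_assoc, one_mul, mul_one] using hd
      · simpa only [mul_inv_rev, inv_inv, mul_assoc, mul_one, inv_mul_cancel_left, mul_inv_cancel_left] using p3u_bd h1
      · simpa only [mul_inv_rev, inv_inv, mul_assoc, mul_one, inv_mul_cancel_left, mul_inv_cancel_left] using p3u_bd h2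
      · simpa only [mul_inv_rev, inv_inv, mul_assoc, mul_one, inv_mul_cancel_left, mul_inv_cancel_left] using p3u_bd h3
      · simpa only [mul_inv_rev, inv_inv, mul_assoc, mul_one, inv_mul_cancel_left, mul_inv_cancel_left] using p3u_bd s1
      · simpa only [mul_inv_rev, inv_inv, mul_assoc, mul_one, inv_mul_cancel_left, mul_inv_cancel_left] using p3u_bd s2
      · simpa only [mul_inv_rev, inv_inv, mul_assoc, mul_one, inv_mul_cancel_left, mul_inv_cancel_left] using p3u_bd s3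
      · simpa only [mul_inv_rev, inv_inv, mul_assoc, mul_one, inv_mul_cancel_left, mul_inv_cancel_left] using p3u_bd r1
      · simpa only [mul_inv_rev, inv_inv, mul_assoc, mul_one, inv_mul_cancel_left, mul_inv_cancel_left] using p3u_bd r2
      · simpa only [mul_inv_rev, inv_inv, mul_assoc, mul_one, inv_mul_cancel_left, mul_inv_cancel_left] using p3u_bd r3
      · simpa only [mul_inv_rev, inv_inv, mul_assoc, mul_one, inv_mul_cancel_left, mul_inv_cancel_left] using p3u_bd t1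
      · simpa only [mul_inv_rev, inv_inv, mul_assoc, mul_one, inv_mul_cancel_left, mul_inv_cancel_left] using p3u_bd t2
      · simpa only [mul_inv_rev, inv_inv, mul_assoc, mul_one, inv_mul_cancel_left, mul_inv_cancel_left] using p3u_bd t3
      · simpa only [mul_inv_rev, inv_inv, mul_assoc, mul_one, inv_mul_cancel_left, mul_inv_cancel_left] using p3u_bd x1
      · simpa only [mul_inv_rev, inv_inv, mul_assoc, mul_one, inv_mul_cancel_left, mul_inv_cancel_left] using p3u_bd x2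
      · simpa only [pow_succ, pow_zero, one_mul, mul_inv_rev, mul_assoc, mul_one] using p3u_cm za
      · simpa only [pow_succ, pow_zero, one_mul, mul_inv_rev, mul_assoc, mul_one] using p3u_cm zd
      · simpa only [pow_succ, pow_zero, one_mul, mul_assoc, mul_one] using z2
  have m1 : c⁻¹ * b ∈ centralizer ({(d * b) ^ 3} : Set G) := by
    have := p3u_sub (p3uT a b c d) (u := 6) (v := 2) (H := centralizer ({(d * b) ^ 3} : Set G))
      (mem_centralizer_singleton_iff.2 w2.symm) (mem_centralizer_singleton_iff.2 w1.symm) (P3.s1_0 G _ hs)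
    simpa only [ev_cons, ev_nil, p3uT, mul_one] using this
  have m2 : c ∈ centralizer ({(d * b) ^ 3} : Set G) := by
    have := mul_mem (mem_centralizer_singleton_iff.2 w1.symm) (inv_mem m1)
    simpa using this
  have hs2 : Sat P3.P2 (p3uT a b c d) := by
    rw [P3.P2_eq]
    refine hs.add ?_
    simp only [List.forall_mem_cons, ev_cons, ev_nil, p3uT]
    refine ⟨?_, by simp⟩
    simpa only [pow_succ, pow_zero, one_mul, mul_inv_rev, mul_assoc, mul_one] using
      p3u_cm (mem_centralizer_singleton_iff.1 m2)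
  have m3 : (b * c) ^ 3 ∈ zpowers b := by
    have := p3u_sub1 (p3uT a b c d) (u := 2) (H := zpowers b) (mem_zpowers b) (P3.s2_0 G _ hs2)
    simpa only [ev_cons, ev_nil, p3uT, mul_one, pow_succ, pow_zero, one_mul, mul_assoc] using this
  obtain ⟨k, hk⟩ := mem_zpowers_iff.1 m3
  have e3 : ((b * c) ^ 3) ^ 3 = 1 := by
    rw [← hk, ← zpow_natCast, ← zpow_mul, mul_comm, zpow_mul, zpow_natCast, hb, one_zpow]
  rw [pow_succ, pow_two, z2, one_mul] at e3
  exact e3

/-- PROOF (tools/tc).  Step 1: enumeration over `⟨a, b, d⟩` collapses to index 1 (HLT max 12000 cosets): `InSub`,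
`c ∈ U = ⟨a, b, d⟩`.  Step 2: `a, b, d` satisfy the presentation of `U₃(3)` (cubes, `Bd a b`, `Bd d b`, `t1 t2 t3`;
order 6048, index 252 over `⟨a, b⟩`), a simple group (`PModel.simple`, `Link`), so `Z(U) = 1`.
`z = (b c) ^ 3 ∈ U` commutes with `a`, `d` (`tc_ppp`) and `b` (`tc2`), so `z = 1`.  (The presented group is `U₃(3)`
with `c = b`; any other route is fine.) -/
theorem tc4 (ha : a ^ 3 = 1) (hb : b ^ 3 = 1) (hc : c ^ 3 = 1) (hd : d ^ 3 = 1)
    (h1 : Bd a b) (h2 : Bd c b) (h3 : Bd d b)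
    (s1 : Bd a c) (s2 : Bd a (b * c * b⁻¹)) (s3 : Bd a (b⁻¹ * c * b))
    (r1 : Bd d c) (r2 : Bd d (b * c * b⁻¹)) (r3 : Bd d (b⁻¹ * c * b))
    (t1 : Bd d a) (t2 : Bd d⁻¹ (b * a * b⁻¹)) (t3 : Bd d⁻¹ (b⁻¹ * a * b))
    (x1 : Bd d (c⁻¹ * (a⁻¹ * b * a) * c)) (x2 : Bd d⁻¹ (c⁻¹ * (a * b * a⁻¹) * c)) :
    (b * c) ^ 3 = 1 := by
  let φ : FreeGroup (Fin 4) →* G := FreeGroup.lift ![a, b, c, d]
  let f : (FreeGroup (Fin 4) ⧸ φ.ker) →* G := QuotientGroup.kerLift φ
  have hf : Function.Injective f := QuotientGroup.kerLift_injective φ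
  obtain ⟨a', ea⟩ : ∃ a', f a' = a := ⟨QuotientGroup.mk (FreeGroup.of 0), by simp [f, φ]⟩
  obtain ⟨b', eb⟩ : ∃ b', f b' = b := ⟨QuotientGroup.mk (FreeGroup.of 1), by simp [f, φ]⟩
  obtain ⟨c', ec⟩ : ∃ c', f c' = c := ⟨QuotientGroup.mk (FreeGroup.of 2), by simp [f, φ]⟩
  obtain ⟨d', ed⟩ : ∃ d', f d' = d := ⟨QuotientGroup.mk (FreeGroup.of 3), by simp [f, φ]⟩
  have p : ∀ x, f x ^ 3 = 1 → x ^ 3 = 1 := fun x h => hf (by rw [map_pow, h, map_one])
  have q : ∀ x y u v, f x = u → f y = v → Bd u v → Bd x y := fun x y u v e e' h =>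
    hf (by simp only [map_mul, e, e']; exact h)
  have key := tc4T (a := a') (b := b') (c := c') (d := d') (p _ (ea ▸ ha)) (p _ (eb ▸ hb)) (p _ (ec ▸ hc))
    (p _ (ed ▸ hd))
    (q _ _ _ _ (by simp only [map_mul, map_inv, ea, eb, ec, ed]) (by simp only [map_mul, map_inv, ea, eb, ec, ed]) h1)
    (q _ _ _ _ (by simp only [map_mul, map_inv, ea, eb, ec, ed]) (by simp only [map_mul, map_inv, ea, eb, ec, ed]) h2)
    (q _ _ _ _ (by simp only [map_mul, map_inv, ea, eb, ec, ed]) (by simp only [map_mul, map_inv, ea, eb, ec, ed]) h3)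
    (q _ _ _ _ (by simp only [map_mul, map_inv, ea, eb, ec, ed]) (by simp only [map_mul, map_inv, ea, eb, ec, ed]) s1)
    (q _ _ _ _ (by simp only [map_mul, map_inv, ea, eb, ec, ed]) (by simp only [map_mul, map_inv, ea, eb, ec, ed]) s2)
    (q _ _ _ _ (by simp only [map_mul, map_inv, ea, eb, ec, ed]) (by simp only [map_mul, map_inv, ea, eb, ec, ed]) s3)
    (q _ _ _ _ (by simp only [map_mul, map_inv, ea, eb, ec, ed]) (by simp only [map_mul, map_inv, ea, eb, ec, ed]) r1)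
    (q _ _ _ _ (by simp only [map_mul, map_inv, ea, eb, ec, ed]) (by simp only [map_mul, map_inv, ea, eb, ec, ed]) r2)
    (q _ _ _ _ (by simp only [map_mul, map_inv, ea, eb, ec, ed]) (by simp only [map_mul, map_inv, ea, eb, ec, ed]) r3)
    (q _ _ _ _ (by simp only [map_mul, map_inv, ea, eb, ec, ed]) (by simp only [map_mul, map_inv, ea, eb, ec, ed]) t1)
    (q _ _ _ _ (by simp only [map_mul, map_inv, ea, eb, ec, ed]) (by simp only [map_mul, map_inv, ea, eb, ec, ed]) t2)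
    (q _ _ _ _ (by simp only [map_mul, map_inv, ea, eb, ec, ed]) (by simp only [map_mul, map_inv, ea, eb, ec, ed]) t3)
    (q _ _ _ _ (by simp only [map_mul, map_inv, ea, eb, ec, ed]) (by simp only [map_mul, map_inv, ea, eb, ec, ed]) x1)
    (q _ _ _ _ (by simp only [map_mul, map_inv, ea, eb, ec, ed]) (by simp only [map_mul, map_inv, ea, eb, ec, ed]) x2)
  have := congrArg f key
  rwa [map_pow, map_mul, eb, ec, map_one] at this

end Cfsg.Agent.CyN
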