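import Mathlib
import Cfsg.Agent.Grp.MinNormal
import Cfsg.Agent.S0205

/-! `odd_rank3'` for `CyN/V4c`. -/

set_option autoImplicit false

namespace Cfsg.Agent.CyN

open Subgroup MulAction

theorem v4r_arith {r j k : ℕ} (hr : r.Prime) (r2 : r ≠ 2) (hj : j ≠ 0) (e : r ^ j + 1 = 2 ^ k) : j = 1 := by
  obtain ⟨s, rfl⟩ := hr.odd_of_ne_two r2
  have h1 := hr.one_lt
  rcases Nat.even_or_odd' j with ⟨i, rfl | rfl⟩
  · exfalso
    have h4 : (2 * s + 1) ^ (2 * i) ≡ 1 ^ i [MOD 4] := by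
      rw [pow_mul]
      refine Nat.ModEq.pow i ?_
      rw [show (2 * s + 1) ^ 2 = 1 + 4 * (s * s + s) by ring]
      simp [Nat.ModEq]
    rw [one_pow] at h4
    have h5 : 1 < (2 * s + 1) ^ (2 * i) := Nat.one_lt_pow hj h1
    obtain _ | _ | k := k
    · omega
    · omega
    · rw [pow_add, pow_add] at e
      unfold Nat.ModEq at h4
      omega
  · have h4 : (2 * s + 1) ^ (2 * i) ≡ 1 ^ i [MOD 2 * (2 * s + 2)] := by
      rw [pow_mul]
      refine Nat.ModEq.pow i ?_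
      rw [show (2 * s + 1) ^ 2 = 1 + 2 * (2 * s + 2) * s by ring]
      simp [Nat.ModEq]
    have h5 : 2 ^ k ≡ 2 * s + 2 [MOD 2 * (2 * s + 2)] := by
      rw [← e, pow_succ]
      have := (h4.mul_right (2 * s + 1)).add_right 1
      simpa using this
    have h6 : 2 * s + 2 ∣ 2 ^ k :=
      ((h5.of_mul_left 2).dvd_iff dvd_rfl).2 dvd_rfl
    obtain ⟨a, ha, ea⟩ := (Nat.dvd_prime_pow Nat.prime_two).1 h6
    rcases ha.lt_or_eq with h | rfl
    · exfalso
      have h7 : 2 * (2 * s + 2) ∣ 2 ^ k := by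
        rw [ea, ← pow_succ']
        exact pow_dvd_pow 2 h
      have h8 := Nat.le_of_dvd (by omega) ((h5.dvd_iff dvd_rfl).1 h7)
      omega
    · have h9 : (2 * s + 1) ^ (2 * i + 1) = (2 * s + 1) ^ 1 := by rw [pow_one]; omega
      exact Nat.pow_right_injective h1 h9

theorem v4r_trans {T X : Type} [Group T] [Finite X] [MulAction T X] (tr : ∀ x y : X, ∃ g : T, g • x = y)
    (h3 : ∀ x y : X, y ≠ x → Nat.card X ≤ 2 * {w | ∃ g : T, g • x = x ∧ g • y = w}.ncard + 1)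
    {N : Subgroup T} (hN : N.Normal) {n : T} (hn : n ∈ N) {w : X} (hw : n • w ≠ w) (x y : X) :
    ∃ m ∈ N, m • x = y := by
  have key : ∀ x : X, Nat.card X < 2 * {v | ∃ m ∈ N, m • x = v}.ncard := by
    intro x
    obtain ⟨t, rfl⟩ := tr w x
    have h1 : t • n • w ≠ t • w := fun e => hw (smul_left_cancel t e)
    have h2 := h3 _ _ h1
    have h4 : t • w ∉ {v | ∃ g : T, g • t • w = t • w ∧ g • t • n • w = v} := by
      rintro ⟨g, g1, g2⟩
      exact h1 (smul_left_cancel g (g2.trans g1.symm))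
    have h5 : insert (t • w) {v | ∃ g : T, g • t • w = t • w ∧ g • t • n • w = v} ⊆
        {v | ∃ m ∈ N, m • t • w = v} := by
      rintro v (rfl | ⟨g, g1, rfl⟩)
      · exact ⟨1, one_mem _, one_smul _ _⟩
      · refine ⟨g * t * n * (g * t)⁻¹, hN.conj_mem n hn _, ?_⟩
        conv_lhs => rw [← g1]
        simp [mul_smul]
    have h6 := Set.ncard_le_ncard h5
    rw [Set.ncard_insert_of_notMem h4] at h6
    omega
  by_contra hc
  have hd : Disjoint {v | ∃ m ∈ N, m • x = v} {v | ∃ m ∈ N, m • y = v} := by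
    rw [Set.disjoint_left]
    rintro v ⟨m, hm, rfl⟩ ⟨m', hm', e⟩
    exact hc ⟨m'⁻¹ * m, mul_mem (inv_mem hm') hm, by rw [mul_smul, ← e, inv_smul_smul]⟩
  have h1 := Set.ncard_union_eq hd
  have h2 := Set.ncard_le_card ({v | ∃ m ∈ N, m • x = v} ∪ {v | ∃ m ∈ N, m • y = v})
  have h4 := key x
  have h5 := key y
  omega

theorem v4r_faith {T X : Type} [Group T] [Finite T] [Finite X] [MulAction T X]
    (hf : ∀ g : T, (∀ w : X, g • w = w) → g = 1) (ho : Odd (Nat.card T)) {k : ℕ}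
    (hk : Nat.card X + 1 = 2 ^ k) (tr : ∀ x y : X, ∃ g : T, g • x = y)
    (h3 : ∀ x y : X, y ≠ x → Nat.card X ≤ 2 * {w | ∃ g : T, g • x = x ∧ g • y = w}.ncard + 1)
    {x y : X} (hxy : x ≠ y) {g : T} (gx : g • x = x) (gy : g • y = y) (w : X) : g • w = w := by
  rcases subsingleton_or_nontrivial T with hT | hT
  · rw [Subsingleton.elim g 1, one_smul]
  have := Cfsg.Agent.S0205.result ho
  obtain ⟨r, M, hr, hM, M1, hc, -, hp, -⟩ := Cfsg.Agent.Grp.exists_minNormal_elementaryAbelian T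
  have : Fact r.Prime := ⟨hr⟩
  obtain ⟨n, hn, n1⟩ : ∃ n ∈ M, n ≠ 1 := by
    by_contra h
    push Not at h
    exact M1 (eq_bot_iff.2 fun u hu => mem_bot.2 (h u hu))
  obtain ⟨v, hv⟩ : ∃ v : X, n • v ≠ v := by
    by_contra h
    push Not at h
    exact n1 (hf n h)
  have trM := v4r_trans tr h3 hM hn hv
  have cm : ∀ a ∈ M, ∀ b ∈ M, a * b = b * a := fun a ha b hb =>
    congrArg Subtype.val (hc.is_comm.comm ⟨a, ha⟩ ⟨b, hb⟩)
  have reg : ∀ a ∈ M, ∀ b ∈ M, a • x = b • x → a = b := by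
    intro a ha b hb e
    rw [← inv_mul_eq_one]
    refine hf _ fun u => ?_
    obtain ⟨m, hm, rfl⟩ := trM x u
    rw [← mul_smul, cm _ (mul_mem (inv_mem ha) hb) m hm, mul_smul, mul_smul, ← e, inv_smul_smul]
  have hcard : Nat.card M = Nat.card X := by
    refine Nat.card_congr (Equiv.ofBijective (fun m : M => (m : T) • x) ⟨?_, ?_⟩)
    · intro a b e
      exact Subtype.ext (reg _ a.2 _ b.2 e)
    · intro u
      obtain ⟨m, hm, e⟩ := trM x u
      exact ⟨⟨m, hm⟩, e⟩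
  obtain ⟨j, hj⟩ := IsPGroup.iff_card.1 hp
  have j0 : j ≠ 0 := by
    rintro rfl
    exact M1 (card_eq_one.1 (by rw [hj, pow_zero]))
  have r2 : r ≠ 2 := by
    rintro rfl
    have h1 : 2 ∣ Nat.card T := ((dvd_pow_self 2 j0).trans hj.symm.dvd).trans (card_subgroup_dvd_card M)
    exact (Nat.not_even_iff_odd.2 ho) (even_iff_two_dvd.2 h1)
  have j1 := v4r_arith hr r2 j0 (by rw [← hj, hcard, hk])
  rw [j1, pow_one] at hj
  obtain ⟨m, hm, rfl⟩ := trM x y
  have m1 : m ≠ 1 := by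
    rintro rfl
    exact hxy (one_smul _ _).symm
  have hz : zpowers m = M := by
    have hle : zpowers m ≤ M := zpowers_le.2 hm
    have hd := card_dvd_of_le hle
    rw [hj] at hd
    rcases (Nat.dvd_prime hr).1 hd with e | e
    · rw [Nat.card_zpowers, orderOf_eq_one_iff] at e
      exact absurd e m1
    · exact eq_of_le_of_card_ge hle (by rw [e, hj])
  have cg : Commute g m := by
    have := reg _ (hM.conj_mem m hm g) m hm (by
      rw [mul_smul, mul_smul, inv_smul_eq_iff.2 gx.symm, gy])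
    exact mul_inv_eq_iff_eq_mul.1 this
  obtain ⟨u, hu, rfl⟩ := trM x w
  rw [← hz] at hu
  obtain ⟨i, rfl⟩ := mem_zpowers_iff.1 hu
  rw [← mul_smul, (cg.zpow_right i).eq, mul_smul, gx]

theorem odd_rank3' {T X : Type} [Group T] [Finite T] [Finite X] [MulAction T X] (ho : Odd (Nat.card T)) {k : ℕ}
    (hk : Nat.card X + 1 = 2 ^ k) (tr : ∀ x y : X, ∃ g : T, g • x = y)
    (h3 : ∀ x y : X, y ≠ x → Nat.card X ≤ 2 * {w | ∃ g : T, g • x = x ∧ g • y = w}.ncard + 1)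
    {x y : X} (hxy : x ≠ y) {g : T} (gx : g • x = x) (gy : g • y = y) (w : X) : g • w = w := by
  refine v4r_faith (T := (toPermHom T X).range) (g := ⟨toPermHom T X g, g, rfl⟩) (fun s hs => ?_)
    (ho.of_dvd_nat (card_range_dvd _)) hk (fun a b => ?_) (fun a b hab => ?_) hxy gx gy w
  · exact Subtype.ext (Equiv.ext hs)
  · obtain ⟨s, e⟩ := tr a b
    exact ⟨⟨toPermHom T X s, s, rfl⟩, e⟩
  · refine (h3 a b hab).trans (Nat.add_le_add_right (Nat.mul_le_mul_left 2 (Set.ncard_le_ncard ?_)) 1)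
    rintro v ⟨s, e1, e2⟩
    exact ⟨⟨toPermHom T X s, s, rfl⟩, e1, e2⟩

end Cfsg.Agent.CyN
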